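import Cfsg.Agent.H732.E8T.Kform
import Cfsg.Agent.H455.E83.FixAc
import Cfsg.Agent.H837.E83.NM11Fin

/-!
# S5925 box K: every `f` with the relations of `M11` over the explicit `L₂(11)` stabilises `U1` (helper732)
-/

set_option autoImplicit false
set_option maxRecDepth 100000
set_option maxHeartbeats 60000

namespace Cfsg.Agent.H732.E8T

open Matrix Cfsg Cfsg.Lie
open Cfsg.Agent.H837.E83.NM11
open Cfsg.Agent.H788.E83 (SL5 it Ax Ay At Ax_eq Ay_eq At_eq)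
open Cfsg.Agent.H64.E83 (mx L3 er vec vec_eq cf Ph E ac ac_one ac_mul ac_add ac_smul ac_inv_ac U1 stabW mem_stabW mem_U1
  Ph_U1 i1 i1_add i1_smul i1_inj qII o1 act1' qII_eq x_qII vec_inl vec_inr)
open Cfsg.Agent.H738.E83 (br mx_br vb br_smul_right br_smul_left br_zero_left br_zero_right)
open Cfsg.Agent.H977.E83 (lh1 lh2 lh3 lh4 ql r0 bh1 bh2 bh3 bh4 zl vb_zl)

/-! ### letters -/

/-- the letters -/
noncomputable def vf (f : E) : ℕ → E
  | 0 => Ph Ax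
  | 1 => Ph Ay
  | 2 => Ph At
  | 3 => f
  | _ => 1

theorem vf_three (f : E) : vf f 3 = f := rfl

theorem ev_ge (n : ℕ) (hn : 4 ≤ n) {i : ℕ} (hi : i < 12) : ap n i = i := by
  obtain ⟨m, rfl⟩ := Nat.exists_eq_add_of_le' hn
  have h : ∀ i : Fin 12, ap 4 i = i := by decide +kernel
  exact h ⟨i, hi⟩

/-- the letters `< 4` -/
def w4 : List ℕ → List (Fin 4)
  | [] => []
  | n :: w => if h : n < 4 then ⟨n, h⟩ :: w4 w else w4 w

theorem ev_w4 (w : List ℕ) {i : ℕ} (hi : i < 12) : ev ((w4 w).map Fin.val) i = ev w i := by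
  induction w with
  | nil => rfl
  | cons n w ih =>
    unfold w4
    split
    · show ap n (ev ((w4 w).map Fin.val) i) = ap n (ev w i)
      rw [ih]
    · rename_i h
      rw [ih]
      show _ = ap n (ev w i)
      rw [ev_ge n (not_lt.1 h) (ev_lt w hi)]

theorem prod_w4 (f : E) (w : List ℕ) : ((w4 w).map ![Ph Ax, Ph Ay, Ph At, f]).prod = (w.map (vf f)).prod := by
  induction w with
  | nil => rfl
  | cons n w ih =>
    unfold w4
    split
    · rename_i h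
      rw [List.map_cons, List.prod_cons, ih, List.map_cons, List.prod_cons]
      congr 1
      interval_cases n <;> rfl
    · rename_i h
      rw [ih, List.map_cons, List.prod_cons]
      obtain ⟨m, rfl⟩ := Nat.exists_eq_add_of_le' (not_lt.1 h)
      have e1 : vf f (m + 4) = 1 := rfl
      rw [e1, one_mul]

theorem inp_of {f : E} (h : ∀ w w' : List (Fin 4), eqP4 w w' = true →
    (w.map ![Ph Ax, Ph Ay, Ph At, f]).prod = (w'.map ![Ph Ax, Ph Ay, Ph At, f]).prod) : Inp (vf f) where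
  rel := by
    intro w w' hw
    rw [← prod_w4, ← prod_w4]
    refine h _ _ ?_
    unfold eqP4 eqP at *
    refine List.all_eq_true.2 fun i hi => ?_
    have h1 := List.all_eq_true.1 hw i hi
    rw [ev_w4 w (List.mem_range.1 hi), ev_w4 w' (List.mem_range.1 hi)]
    exact h1
  vx := rfl
  vy := rfl
  vt := rfl

/-! ### `f q = ± q` -/

theorem x11 : Ph Ax ^ 11 = 1 := by rw [← map_pow, Cfsg.Agent.H788.E83.x_pow, map_one]

theorem x_inv : (Ph Ax)⁻¹ = Ph Ax ^ 10 := by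
  rw [inv_eq_iff_mul_eq_one, ← pow_succ', x11]

theorem f_qII {v : ℕ → E} (h : Inp v) : ∃ c : ZMod 3, ac (v 3) qII = c • qII := by
  have r1 : v 3 * v 1 = v 1 * (v 1 * v 3) := by
    simpa using h.rel [3, 1] [1, 1, 3] (by decide +kernel)
  have r2 : v 3 * v 3 = v 2 := by
    simpa using h.rel [3, 3] [2] (by decide +kernel)
  have r3 : v 3 * (v 0 * (v 2 * v 0 ^ 10)) = v 1 * (v 0 * (v 2 * (v 0 ^ 10 * (v 2 * (v 1 * (v 1 * v 3)))))) := by
    have h1 := h.rel (3 :: 0 :: 2 :: List.replicate 10 0) (1 :: 0 :: 2 :: (List.replicate 10 0 ++ [2, 1, 1, 3]))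
      (by decide +kernel)
    rw [List.map_cons, List.map_cons, List.map_cons, List.map_replicate, List.prod_cons, List.prod_cons, List.prod_cons,
      List.prod_replicate, List.map_cons, List.map_cons, List.map_cons, List.map_append, List.map_replicate, List.prod_cons,
      List.prod_cons, List.prod_cons, List.prod_append, List.prod_replicate] at h1
    rw [h1]
    simp only [List.map_cons, List.map_nil, List.prod_cons, List.prod_nil, mul_one]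
  rw [h.vy] at r1
  rw [h.vt] at r2
  rw [h.vx, h.vy, h.vt] at r3
  refine Cfsg.Agent.H455.E83.m11_lineII ?_ r2 ?_
  · rw [r1, pow_two]
    group
  · rw [x_inv]
    have e1 : v 3 * (Ph Ax * Ph At * Ph Ax ^ 10) = v 3 * (Ph Ax * (Ph At * Ph Ax ^ 10)) := by rw [mul_assoc]
    rw [e1, r3, pow_two]
    simp only [mul_assoc, mul_inv_cancel, mul_one]

theorem qII_ne : qII ≠ 0 := by
  intro h
  have h5 : i1 (o1 0) = i1 0 := by rw [i1_zero, ← qII_eq, h]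
  exact absurd (congrFun (i1_inj h5) 0) (by decide)

theorem neg_eq_two (u : L3) : (-1 : ZMod 3) • u = (2 : ℕ) • u := by
  rw [two_nsmul_L]
  rfl

theorem ql_eq : vb ql = qII := by
  rw [Cfsg.Agent.H455.E83.qII_H64, ← Cfsg.Agent.H455.E83.vb_wII]
  exact vec_eq (by decide +kernel)

/-! ### the main theorem -/

/-- the second derivation of adjacent arcs -/
theorem e1_of {v : ℕ → E} (h : Inp v) (hf : ac (v 3) qII = 2 • qII)
    (hC : br (vb ql) (br (vb ql) (mx (Ph Ax ^ 10) *ᵥ vb ql)) = 0) :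
    br (ac (v 3) (ac (Ph Ax) qII)) (br (ac (v 3) (ac (Ph Ax) qII)) (vb ql)) = 0 := by
  have hs := sys h hf
  have h1 := hs.fx_q10
  have e0 : ∀ u, act (Tv v) [3, 0] u = ac (v 3) (ac (Ph Ax) u) := fun u => by
    rw [act_cons, act_cons, act_nil, Tv_apply, Tv_apply, h.vx]
  rw [rep_eq v h.vx, e0] at h1
  rw [ql_eq] at hC ⊢
  have h2 : mx (v 3) *ᵥ (mx (Ph Ax) *ᵥ br qII (br qII (mx (Ph Ax ^ 10) *ᵥ qII))) = 0 := by
    rw [hC, Matrix.mulVec_zero, Matrix.mulVec_zero]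
  rw [mx_br, mx_br, mx_br, mx_br] at h2
  have h3 : mx (v 3) *ᵥ (mx (Ph Ax) *ᵥ (mx (Ph Ax ^ 10) *ᵥ qII)) = (2 : ZMod 3) • qII := by
    rw [← two_nsmul_L]
    exact h1
  rw [h3, br_smul_right, br_smul_right] at h2
  have h4 : (2 : ZMod 3) • ((2 : ZMod 3) • br (mx (v 3) *ᵥ (mx (Ph Ax) *ᵥ qII)) (br (mx (v 3) *ᵥ (mx (Ph Ax) *ᵥ qII)) qII)) = 0 := by
    rw [h2, smul_zero]
  rw [smul_smul, show (2 : ZMod 3) * 2 = 1 from by decide, one_smul] at h4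
  exact h4

theorem e2_of {v : ℕ → E} (h : Inp v) (hf : ac (v 3) qII = 2 • qII) {r : L3} (hr : r = ac (v 3) (ac (Ph Ax) qII))
    (he : br (mx (Ph Ax) *ᵥ vb ql) (mx (Ph Ax) *ᵥ (mx (Ph At) *ᵥ (mx (Ph Ay) *ᵥ r)) - mx (Ph Ax ^ 9) *ᵥ vb ql) = 0) :
    br r (mx (Ph Ay) *ᵥ (mx (Ph Ax) *ᵥ (mx (Ph Ax) *ᵥ r)) - mx (Ph At) *ᵥ r) = 0 := by
  have hs := sys h hf
  have t1 := hs.tri1
  have t2 := hs.tri2
  have a0 : ∀ u, Tv v 0 u = mx (Ph Ax) *ᵥ u := fun u => by rw [Tv_apply, h.vx]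
  have a1 : ∀ u, Tv v 1 u = mx (Ph Ay) *ᵥ u := fun u => by rw [Tv_apply, h.vy]
  have a2 : ∀ u, Tv v 2 u = mx (Ph At) *ᵥ u := fun u => by rw [Tv_apply, h.vt]
  have a3 : ∀ u, Tv v 3 u = mx (v 3) *ᵥ u := fun u => by rw [Tv_apply]
  have er : act (Tv v) [3, 0] qII = r := by rw [hr, act_cons, act_cons, act_nil, Tv_apply, Tv_apply, h.vx]
  rw [er] at t1 t2
  rw [act_cons, act_cons, act_cons, act_cons, act_nil, act3, a3, a0, a2, a1, a1, a0, a0] at t1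
  rw [act_cons, act_nil, act_cons, act_nil, rep_eq v h.vx, a3, a2] at t2
  rw [ql_eq] at he
  have h2 : mx (v 3) *ᵥ br (mx (Ph Ax) *ᵥ qII)
      (mx (Ph Ax) *ᵥ (mx (Ph At) *ᵥ (mx (Ph Ay) *ᵥ r)) - mx (Ph Ax ^ 9) *ᵥ qII) = 0 := by
    rw [he, Matrix.mulVec_zero]
  rw [mx_br, Matrix.mulVec_sub, t1, t2] at h2
  have h3 : mx (v 3) *ᵥ (mx (Ph Ax) *ᵥ qII) = r := hr.symm
  rw [h3] at h2
  exact h2

/-- **box K** -/
theorem stab_of (hC : br (vb ql) (br (vb ql) (mx (Ph Ax ^ 10) *ᵥ vb ql)) = 0)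
    (hcand : ∀ (z1 z2 z3 z4 : ZMod 3) (r : L3),
      r = vb r0 + z1 • vb bh1 + z2 • vb bh2 + z3 • vb bh3 + z4 • vb bh4 →
      br r (br r (vb ql)) = 0 →
      (br (mx (Ph Ax) *ᵥ vb ql) (mx (Ph Ax) *ᵥ (mx (Ph At) *ᵥ (mx (Ph Ay) *ᵥ r)) - mx (Ph Ax ^ 9) *ᵥ vb ql) = 0 →
        br r (mx (Ph Ay) *ᵥ (mx (Ph Ax) *ᵥ (mx (Ph Ax) *ᵥ r)) - mx (Ph At) *ᵥ r) = 0) →
      r = vb r0)
    {v : ℕ → E} (h : Inp v) : v 3 ∈ stabW U1 := by
  obtain ⟨c, hc⟩ := f_qII h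
  rcases Cfsg.Agent.H455.E83.sign_of_ac qII_ne hc with rfl | rfl
  · exfalso
    rw [one_smul] at hc
    exact no1 h (by rw [hc, one_nsmul])
  · rw [neg_eq_two] at hc
    have h0 := r_form h hc
    have h2 := e1_of h hc hC
    have h3 := end_of h hc
    have h4 := fun (r : L3) (hr : r = ac (v 3) (ac (Ph Ax) qII)) => e2_of h hc hr
    generalize ac (v 3) (ac (Ph Ax) qII) = r at h0 h2 h3 h4
    obtain ⟨z1, z2, z3, z4, hr⟩ := h0
    have h1 := hcand z1 z2 z3 z4 r hr h2 (h4 r rfl)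
    rw [h1] at h3
    exact h3 r0_mem

/-- **box K in the form of helper977** -/
theorem bk_of (hC : br (vb ql) (br (vb ql) (mx (Ph Ax ^ 10) *ᵥ vb ql)) = 0)
    (hcand : ∀ (z1 z2 z3 z4 : ZMod 3) (r : L3),
      r = vb r0 + z1 • vb bh1 + z2 • vb bh2 + z3 • vb bh3 + z4 • vb bh4 →
      br r (br r (vb ql)) = 0 →
      (br (mx (Ph Ax) *ᵥ vb ql) (mx (Ph Ax) *ᵥ (mx (Ph At) *ᵥ (mx (Ph Ay) *ᵥ r)) - mx (Ph Ax ^ 9) *ᵥ vb ql) = 0 →
        br r (mx (Ph Ay) *ᵥ (mx (Ph Ax) *ᵥ (mx (Ph Ax) *ᵥ r)) - mx (Ph At) *ᵥ r) = 0) →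
      r = vb r0) (f : E) (h : ∀ w w' : List (Fin 4), eqP4 w w' = true →
    (w.map ![Ph Ax, Ph Ay, Ph At, f]).prod = (w'.map ![Ph Ax, Ph Ay, Ph At, f]).prod) : f ∈ stabW U1 := by
  have h1 := stab_of hC hcand (v := vf f) (inp_of h)
  rw [vf_three] at h1
  exact h1

end Cfsg.Agent.H732.E8T
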