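import Cfsg.Agent.H732.E8T.Edge

/-!
# S5925 box K: the identities between arc vectors which are used (helper732)
-/

set_option autoImplicit false
set_option linter.unusedSectionVars false

namespace Cfsg.Agent.H732.E8T

open Cfsg.Agent.H837.E83.NM11

section

variable {V : Type*} [AddCommGroup V] (T : ℕ → V →+ V)

/-- `1 + y + ⋯ + y⁴` -/
def opY (v : V) : V := v + act T [1] v + act T [1, 1] v + act T [1, 1, 1] v + act T [1, 1, 1, 1] v

/-- `x² + x⁶ + x⁷ + x⁸ + x¹⁰` -/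
def opN (v : V) : V := act T [0, 0] v + act T [0, 0, 0, 0, 0, 0] v + act T [0, 0, 0, 0, 0, 0, 0] v +
  act T [0, 0, 0, 0, 0, 0, 0, 0] v + act T [0, 0, 0, 0, 0, 0, 0, 0, 0, 0] v

/-- `x + x³ + x⁴ + x⁵ + x⁹` -/
def opQ (v : V) : V := act T [0] v + act T [0, 0, 0] v + act T [0, 0, 0, 0] v + act T [0, 0, 0, 0, 0] v +
  act T [0, 0, 0, 0, 0, 0, 0, 0, 0] v

end

/-- the same on formal sums -/
def mY (L : List (ℕ × ℕ × ℕ)) : List (ℕ × ℕ × ℕ) :=
  L ++ mpw [1] L ++ mpw [1, 1] L ++ mpw [1, 1, 1] L ++ mpw [1, 1, 1, 1] L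

def mN (L : List (ℕ × ℕ × ℕ)) : List (ℕ × ℕ × ℕ) :=
  mpw [0, 0] L ++ mpw [0, 0, 0, 0, 0, 0] L ++ mpw [0, 0, 0, 0, 0, 0, 0] L ++ mpw [0, 0, 0, 0, 0, 0, 0, 0] L ++
    mpw [0, 0, 0, 0, 0, 0, 0, 0, 0, 0] L

def mQ (L : List (ℕ × ℕ × ℕ)) : List (ℕ × ℕ × ℕ) :=
  mpw [0] L ++ mpw [0, 0, 0] L ++ mpw [0, 0, 0, 0] L ++ mpw [0, 0, 0, 0, 0] L ++ mpw [0, 0, 0, 0, 0, 0, 0, 0, 0] L

theorem lt4 {w : List ℕ} (h : (w.all fun l => Nat.blt l 4) = true) : ∀ l ∈ w, l < 4 := fun l hl =>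
  Nat.le_of_ble_eq_true (List.all_eq_true.1 h l hl)

theorem val_append {L L' : List (ℕ × ℕ × ℕ)} (h : val L) (h' : val L') : val (L ++ L') := by
  intro t ht
  rcases List.mem_append.1 ht with h1 | h1
  · exact h t h1
  · exact h' t h1

theorem val_mY {L : List (ℕ × ℕ × ℕ)} (h : val L) : val (mY L) :=
  val_append (val_append (val_append (val_append h (Sys.val_mpw _ h)) (Sys.val_mpw _ h)) (Sys.val_mpw _ h)) (Sys.val_mpw _ h)

theorem val_mN {L : List (ℕ × ℕ × ℕ)} (h : val L) : val (mN L) :=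
  val_append (val_append (val_append (val_append (Sys.val_mpw _ h) (Sys.val_mpw _ h)) (Sys.val_mpw _ h))
    (Sys.val_mpw _ h)) (Sys.val_mpw _ h)

theorem val_mQ {L : List (ℕ × ℕ × ℕ)} (h : val L) : val (mQ L) :=
  val_append (val_append (val_append (val_append (Sys.val_mpw _ h) (Sys.val_mpw _ h)) (Sys.val_mpw _ h))
    (Sys.val_mpw _ h)) (Sys.val_mpw _ h)

namespace Sys

variable {V : Type*} [AddCommGroup V] {T : ℕ → V →+ V} {k : ℕ} {q : V} (h : Sys T k q)

include h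

theorem Y_ph {L : List (ℕ × ℕ × ℕ)} (hL : val L) : opY T (ph T q L) = ph T q (mY L) := by
  unfold opY mY
  rw [h.act_ph (lt4 rfl) hL, h.act_ph (lt4 rfl) hL, h.act_ph (lt4 rfl) hL, h.act_ph (lt4 rfl) hL, ph_append, ph_append,
    ph_append, ph_append]

theorem N_ph {L : List (ℕ × ℕ × ℕ)} (hL : val L) : opN T (ph T q L) = ph T q (mN L) := by
  unfold opN mN
  rw [h.act_ph (lt4 rfl) hL, h.act_ph (lt4 rfl) hL, h.act_ph (lt4 rfl) hL, h.act_ph (lt4 rfl) hL, h.act_ph (lt4 rfl) hL,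
    ph_append, ph_append, ph_append, ph_append]

theorem Q_ph {L : List (ℕ × ℕ × ℕ)} (hL : val L) : opQ T (ph T q L) = ph T q (mQ L) := by
  unfold opQ mQ
  rw [h.act_ph (lt4 rfl) hL, h.act_ph (lt4 rfl) hL, h.act_ph (lt4 rfl) hL, h.act_ph (lt4 rfl) hL, h.act_ph (lt4 rfl) hL,
    ph_append, ph_append, ph_append, ph_append]

end Sys

theorem v30 : val L30 := val_of (by decide +kernel)
theorem vM2 : val M1_2 := val_of (by decide +kernel)
theorem vM1 : val M1_1 := val_of (by decide +kernel)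
theorem vP1 : val P1 := val_of (by decide +kernel)
theorem vrc2 : val rc2 := val_of (by decide +kernel)
theorem vrd2 : val rd2 := val_of (by decide +kernel)
theorem vrc1 : val rc1 := val_of (by decide +kernel)
theorem vrd1 : val rd1 := val_of (by decide +kernel)

theorem lt4G {G : List (List ℕ × ℕ)} (h : (G.all fun p => p.1.all fun l => Nat.blt l 4) = true) :
    ∀ p ∈ G, ∀ l ∈ p.1, l < 4 := fun p hp => lt4 (List.all_eq_true.1 h p hp)

/-! ### `k = 2` -/

theorem ky2 : chk 2 (mpw [1] L30) L30 = true := by decide +kernel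
theorem kn2 : chk 2 (mN L30) [] = true := by decide +kernel
theorem kt2 : chk 2 (mY (mp 2 L30)) M1_2 = true := by decide +kernel
theorem kc2 : chk 2 (M1_2 ++ mN M1_2 ++ rc2) L30 = true := by decide +kernel

/-- the formula of `r = f x q` -/
def Lr : List (ℕ × ℕ × ℕ) := [(2, 11, 0), (1, 11, 1), (1, 11, 2), (2, 11, 3), (1, 11, 4)] ++ mpw [1, 0, 1, 2, 0] L30 ++
  mpw [0, 2, 1, 1, 0] L30 ++ mpw [0, 1, 0] L30

theorem kd2 : chk 2 [(1, 0, 6)] (Lr ++ rd2) = true := by decide +kernel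

/-! ### `k = 1` -/

theorem ky1 : chk 1 (mpw [1] L30) L30 = true := by decide +kernel
theorem kn1 : chk 1 (mN L30) [] = true := by decide +kernel
theorem kt1 : chk 1 (mY (mp 2 L30)) M1_1 = true := by decide +kernel
theorem kc1 : chk 1 (M1_1 ++ mN M1_1 ++ rc1) (L30 ++ L30) = true := by decide +kernel
theorem kp1 : chk 1 (mY (mpw [0, 0, 2, 0] L30)) P1 = true := by decide +kernel
theorem kd1 : chk 1 (P1 ++ mQ P1 ++ rd1) [(1, 11, 0)] = true := by decide +kernel

theorem Rc2 : (gc2.flatMap fun p => rl p.1 p.2) = rc2 := by decide +kernel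
theorem Rd2 : (gd2.flatMap fun p => rl p.1 p.2) = rd2 := by decide +kernel
theorem Rc1 : (gc1.flatMap fun p => rl p.1 p.2) = rc1 := by decide +kernel
theorem Rd1 : (gd1.flatMap fun p => rl p.1 p.2) = rd1 := by decide +kernel

/-- the vector `w` -/
def wv {V : Type*} [AddCommGroup V] (T : ℕ → V →+ V) (q : V) : V := ph T q L30

namespace Sys

variable {V : Type*} [AddCommGroup V] {T : ℕ → V →+ V} {q : V}

theorem w_y2 (h : Sys T 2 q) : act T [1] (wv T q) = wv T q := by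
  unfold wv
  rw [h.act_ph (lt4 rfl) v30]
  exact h.ph_congr (val_mpw _ v30) v30 ky2

theorem w_N2 (h : Sys T 2 q) : opN T (wv T q) = 0 := by
  unfold wv
  rw [h.N_ph v30, h.ph_congr (val_mN v30) (val_of (L := []) rfl) kn2]
  rfl

theorem w_t2 (h : Sys T 2 q) : opY T (act T [2] (wv T q)) + opN T (opY T (act T [2] (wv T q))) = wv T q := by
  unfold wv
  rw [h.act_ph (lt4 rfl) v30, h.Y_ph (val_mpw _ v30)]
  have e1 : ph T q (mY (mpw [2] L30)) = ph T q M1_2 := h.ph_congr (val_mY (val_mpw _ v30)) vM2 kt2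
  rw [e1, h.N_ph vM2]
  have e2 := h.ph_congr (val_append (val_append vM2 (val_mN vM2)) vrc2) v30 kc2
  rw [ph_append, ph_append, h.ph_rels (lt4G (by decide +kernel)) Rc2, add_zero] at e2
  exact e2

/-- **the formula of `r`** -/
theorem r_eq2 (h : Sys T 2 q) : act T [3, 0] q = (2 • q + act T [0] q + act T [0, 0] q + 2 • act T [0, 0, 0] q +
    act T [0, 0, 0, 0] q) + (act T [1, 0, 1, 2, 0] (wv T q) + act T [0, 2, 1, 1, 0] (wv T q) + act T [0, 1, 0] (wv T q)) := by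
  have hv : val ([(2, 11, 0), (1, 11, 1), (1, 11, 2), (2, 11, 3), (1, 11, 4)] : List (ℕ × ℕ × ℕ)) := val_of rfl
  have h1 := h.ph_congr (L := [(1, 0, 6)]) (L' := Lr ++ rd2) (val_of rfl)
    (val_append (val_append (val_append (val_append hv (val_mpw _ v30)) (val_mpw _ v30)) (val_mpw _ v30)) vrd2) kd2
  rw [ph_append, h.ph_rels (lt4G (by decide +kernel)) Rd2, add_zero] at h1
  unfold Lr at h1
  rw [ph_append, ph_append, ph_append, ← h.act_ph (lt4 rfl) v30, ← h.act_ph (lt4 rfl) v30, ← h.act_ph (lt4 rfl) v30] at h1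
  have e1 : ph T q [(1, 0, 6)] = act T [3, 0] q := by
    unfold ph
    simp only [List.map_cons, List.map_nil, List.sum_cons, List.sum_nil, one_nsmul, add_zero]
    rfl
  have e2 : ph T q [(2, 11, 0), (1, 11, 1), (1, 11, 2), (2, 11, 3), (1, 11, 4)] = 2 • q + act T [0] q + act T [0, 0] q +
      2 • act T [0, 0, 0] q + act T [0, 0, 0, 0] q := by
    unfold ph
    simp only [List.map_cons, List.map_nil, List.sum_cons, List.sum_nil, one_nsmul, add_zero, ← add_assoc]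
    rfl
  rw [e1, e2] at h1
  rw [h1]
  unfold wv
  simp only [add_assoc]

theorem w_y1 (h : Sys T 1 q) : act T [1] (wv T q) = wv T q := by
  unfold wv
  rw [h.act_ph (lt4 rfl) v30]
  exact h.ph_congr (val_mpw _ v30) v30 ky1

theorem w_N1 (h : Sys T 1 q) : opN T (wv T q) = 0 := by
  unfold wv
  rw [h.N_ph v30, h.ph_congr (val_mN v30) (val_of (L := []) rfl) kn1]
  rfl

theorem w_t1 (h : Sys T 1 q) : opY T (act T [2] (wv T q)) + opN T (opY T (act T [2] (wv T q))) = wv T q + wv T q := by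
  unfold wv
  rw [h.act_ph (lt4 rfl) v30, h.Y_ph (val_mpw _ v30)]
  have e1 : ph T q (mY (mpw [2] L30)) = ph T q M1_1 := h.ph_congr (val_mY (val_mpw _ v30)) vM1 kt1
  rw [e1, h.N_ph vM1]
  have e2 := h.ph_congr (val_append (val_append vM1 (val_mN vM1)) vrc1) (val_append v30 v30) kc1
  rw [ph_append, ph_append, h.ph_rels (lt4G (by decide +kernel)) Rc1, add_zero, ph_append] at e2
  exact e2

/-- the contradiction relation for `k = 1` -/
theorem w_q1 (h : Sys T 1 q) : opY T (act T [0, 0, 2, 0] (wv T q)) + opQ T (opY T (act T [0, 0, 2, 0] (wv T q))) = q := by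
  unfold wv
  rw [h.act_ph (lt4 rfl) v30, h.Y_ph (val_mpw _ v30)]
  have e1 : ph T q (mY (mpw [0, 0, 2, 0] L30)) = ph T q P1 := h.ph_congr (val_mY (val_mpw _ v30)) vP1 kp1
  rw [e1, h.Q_ph vP1]
  have e2 := h.ph_congr (val_append (val_append vP1 (val_mQ vP1)) vrd1) (val_of (L := [(1, 11, 0)]) rfl) kd1
  rw [ph_append, ph_append, h.ph_rels (lt4G (by decide +kernel)) Rd1, add_zero] at e2
  rw [e2]
  unfold ph
  simp only [List.map_cons, List.map_nil, List.sum_cons, List.sum_nil, one_nsmul, add_zero]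
  rfl

variable {k : ℕ} (h : Sys T k q)

include h

/-- `r` is an arc vector -/
theorem r_arc : act T [3, 0] q = A T q 0 6 := rfl

/-- the arcs `f x^j q` -/
theorem f_q2 : act T [3, 0, 0] q = act T [2, 0, 0, 2, 0, 1] (act T [3, 0] q) := by
  rw [r_arc h, h.act_A (lt4 rfl) (by norm_num) (by norm_num)]
  rfl

theorem f_q3 : act T [3, 0, 0, 0] q = act T [1, 1] (act T [3, 0] q) := by
  rw [r_arc h, h.act_A (lt4 rfl) (by norm_num) (by norm_num)]
  rfl

theorem f_q4 : act T [3, 0, 0, 0, 0] q = act T [2, 1] (act T [3, 0] q) := by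
  rw [r_arc h, h.act_A (lt4 rfl) (by norm_num) (by norm_num)]
  rfl

/-- `f x (x^10 q) = f q` -/
theorem fx_q10 : act T [3, 0] (act T (List.replicate 10 0) q) = k • q := by
  have h1 := h.rel [3, 0, 0, 0, 0, 0, 0, 0, 0, 0, 0, 0] [3] (by decide +kernel) q
  rw [← h.qf]
  exact h1

/-- the relations of the triangle -/
theorem tri1 : act T [3, 0, 2, 1] (act T [3, 0] q) = act T [1, 0, 0] (act T [3, 0] q) := by
  rw [r_arc h, h.act_A (lt4 rfl) (by norm_num) (by norm_num), h.act_A (lt4 rfl) (by norm_num) (by norm_num)]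
  rfl

theorem tri2 : act T [3] (act T (List.replicate 9 0) q) = act T [2] (act T [3, 0] q) := by
  have e1 : act T (List.replicate 9 0) q = A T q 11 9 := rfl
  rw [e1, r_arc h, h.act_A (lt4 rfl) (by norm_num) (by norm_num), h.act_A (lt4 rfl) (by norm_num) (by norm_num)]
  rfl

end Sys

end Cfsg.Agent.H732.E8T
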