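import Cfsg.Agent.H732.E8T.EdgeId
import Cfsg.Agent.H64.E83.Orb
import Cfsg.Agent.H738.E83.Sem
import Cfsg.Agent.H977.E83.Hvec

/-!
# S5925 box K: `f` stabilises the 5-dimensional submodule `U1` (helper732)

`v 0, v 1, v 2, v 3` = `x, y, t, f` in `E₈(3)` with the relations of `M11` (helper837's `eqP`), `x, y, t = Ph Ax, Ph Ay, Ph At`
(helper64, helper788), `f qII = e qII`.
-/

set_option autoImplicit false
set_option maxRecDepth 100000

namespace Cfsg.Agent.H732.E8T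

open Matrix Cfsg Cfsg.Lie
open Cfsg.Agent.H837.E83.NM11
open Cfsg.Agent.H788.E83 (SL5 it Ax Ay At Ax_eq Ay_eq At_eq)
open Cfsg.Agent.H64.E83 (mx L3 er vec cf Ph E ac ac_one ac_mul ac_add ac_smul U1 stabW mem_stabW mem_U1 Ph_U1 i1 i1_add i1_smul i1_inj
  qII o1 act1' qII_eq x_qII vec_inl vec_inr)

/-- the action as additive maps -/
noncomputable def Tv (v : ℕ → E) (l : ℕ) : L3 →+ L3 where
  toFun u := ac (v l) u
  map_zero' := Matrix.mulVec_zero _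
  map_add' a b := ac_add _ a b

theorem Tv_apply (v : ℕ → E) (l : ℕ) (u : L3) : Tv v l u = ac (v l) u := rfl

theorem act_Tv (v : ℕ → E) (w : List ℕ) (u : L3) : act (Tv v) w u = ac ((w.map v).prod) u := by
  induction w with
  | nil => exact (ac_one u).symm
  | cons l w ih => rw [act_cons, ih, List.map_cons, List.prod_cons, ac_mul]; rfl

theorem act_rep (v : ℕ → E) (i l : ℕ) (u : L3) : act (Tv v) (List.replicate i l) u = ac (v l ^ i) u := by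
  rw [act_Tv, List.map_replicate, List.prod_replicate]

theorem three_L (u : L3) : (3 : ℕ) • u = 0 := by
  funext i
  show (3 : ℕ) • u i = 0
  generalize u i = a
  revert a
  decide

/-- the relations -/
structure Inp (v : ℕ → E) : Prop where
  rel : ∀ w w' : List ℕ, eqP w w' = true → (w.map v).prod = (w'.map v).prod
  vx : v 0 = Ph Ax
  vy : v 1 = Ph Ay
  vt : v 2 = Ph At

theorem y_qII : ac (Ph Ay) qII = qII := by
  rw [qII_eq]
  exact act1' (by rw [Ay_eq]; decide +kernel)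

theorem t_qII : ac (Ph At) qII = qII := by
  rw [qII_eq]
  exact act1' (by rw [At_eq]; decide +kernel)

theorem i1_zero : i1 0 = 0 := by
  have h := i1_smul 0 0
  rw [zero_smul, zero_smul] at h
  exact h

theorem sys {v : ℕ → E} (h : Inp v) {k : ℕ} (hf : ac (v 3) qII = k • qII) : Sys (Tv v) k qII where
  three := three_L
  rel := fun w w' hw u => by rw [act_Tv, act_Tv, h.rel w w' hw]
  qy := by rw [Tv_apply, h.vy, y_qII]
  qt := by rw [Tv_apply, h.vt, t_qII]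
  qa := by
    have e1 : act (Tv v) aw qII = ac (Ph Ax) (ac (Ph At) (ac (Ph Ax ^ 10) qII)) := by
      have e2 : aw = 0 :: 2 :: List.replicate 10 0 := rfl
      rw [e2, act_cons, act_cons, act_rep, Tv_apply, Tv_apply, h.vx, h.vt]
    have e3 : ac (Ph At) (i1 (o1 10)) = i1 (o1 10) := act1' (by rw [At_eq]; decide +kernel)
    rw [e1, x_qII 10 le_rfl, e3, qII_eq]
    exact act1' (by rw [Ax_eq]; decide +kernel)
  qf := hf
  qP := by
    have e : ∀ i ≤ 10, act (Tv v) (List.replicate i 0) qII = i1 (o1 i) := fun i hi => by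
      rw [act_rep, h.vx, x_qII i hi]
    have e1 := e 1 (by norm_num)
    have e3 := e 3 (by norm_num)
    have e4 := e 4 (by norm_num)
    have e5 := e 5 (by norm_num)
    have e9 := e 9 (by norm_num)
    show act (Tv v) (List.replicate 1 0) qII + act (Tv v) (List.replicate 3 0) qII + act (Tv v) (List.replicate 4 0) qII +
      act (Tv v) (List.replicate 5 0) qII + act (Tv v) (List.replicate 9 0) qII = 0
    rw [e1, e3, e4, e5, e9, ← i1_add, ← i1_add, ← i1_add, ← i1_add]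
    have e0 : o1 1 + o1 3 + o1 4 + o1 5 + o1 9 = 0 := by decide +kernel
    rw [e0, i1_zero]

/-- the basis `x^j q` of `U1`, `j < 5` -/
theorem span5 (w : Fin 5 → ZMod 3) : ∃ c : Fin 5 → ZMod 3, w = c 0 • o1 0 + c 1 • o1 1 + c 2 • o1 2 + c 3 • o1 3 + c 4 • o1 4 := by
  have hM : (!![1, 0, 1, 0, 0; 0, 0, 2, 0, 0; 0, 2, 2, 2, 2; 0, 0, 1, 0, 1; 2, 2, 0, 0, 1] : Matrix (Fin 5) (Fin 5) (ZMod 3)) *
      !![1, 1, 0, 0, 0; 2, 0, 0, 1, 2; 0, 2, 0, 0, 0; 1, 0, 2, 1, 1; 0, 1, 0, 1, 0] = 1 := by decide +kernel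
  refine ⟨!![1, 1, 0, 0, 0; 2, 0, 0, 1, 2; 0, 2, 0, 0, 0; 1, 0, 2, 1, 1; 0, 1, 0, 1, 0] *ᵥ w, ?_⟩
  have h := Cfsg.Agent.H64.E83.decomp hM w
  rw [Fin.sum_univ_five] at h
  have e0 : (fun i => (!![1, 0, 1, 0, 0; 0, 0, 2, 0, 0; 0, 2, 2, 2, 2; 0, 0, 1, 0, 1; 2, 2, 0, 0, 1] : Matrix (Fin 5) (Fin 5) (ZMod 3)) i 0) = o1 0 := by decide
  have e1 : (fun i => (!![1, 0, 1, 0, 0; 0, 0, 2, 0, 0; 0, 2, 2, 2, 2; 0, 0, 1, 0, 1; 2, 2, 0, 0, 1] : Matrix (Fin 5) (Fin 5) (ZMod 3)) i 1) = o1 1 := by decide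
  have e2 : (fun i => (!![1, 0, 1, 0, 0; 0, 0, 2, 0, 0; 0, 2, 2, 2, 2; 0, 0, 1, 0, 1; 2, 2, 0, 0, 1] : Matrix (Fin 5) (Fin 5) (ZMod 3)) i 2) = o1 2 := by decide
  have e3 : (fun i => (!![1, 0, 1, 0, 0; 0, 0, 2, 0, 0; 0, 2, 2, 2, 2; 0, 0, 1, 0, 1; 2, 2, 0, 0, 1] : Matrix (Fin 5) (Fin 5) (ZMod 3)) i 3) = o1 3 := by decide
  have e4 : (fun i => (!![1, 0, 1, 0, 0; 0, 0, 2, 0, 0; 0, 2, 2, 2, 2; 0, 0, 1, 0, 1; 2, 2, 0, 0, 1] : Matrix (Fin 5) (Fin 5) (ZMod 3)) i 4) = o1 4 := by decide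
  rw [e0, e1, e2, e3, e4] at h
  exact h

/-- the elements of `U1` as combinations of `x^j q`, `j < 5` -/
theorem mem_span {u : L3} (hu : u ∈ U1) : ∃ c : Fin 5 → ZMod 3, u = c 0 • qII + c 1 • ac (Ph Ax ^ 1) qII +
    c 2 • ac (Ph Ax ^ 2) qII + c 3 • ac (Ph Ax ^ 3) qII + c 4 • ac (Ph Ax ^ 4) qII := by
  obtain ⟨w, rfl⟩ := mem_U1.1 hu
  obtain ⟨c, hc⟩ := span5 w
  refine ⟨c, ?_⟩
  rw [x_qII 1 (by norm_num), x_qII 2 (by norm_num), x_qII 3 (by norm_num), x_qII 4 (by norm_num), qII_eq, ← i1_smul, ← i1_smul,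
    ← i1_smul, ← i1_smul, ← i1_smul, ← i1_add, ← i1_add, ← i1_add, ← i1_add, ← hc]

theorem rep_eq (v : ℕ → E) (h : v 0 = Ph Ax) (i : ℕ) (u : L3) : act (Tv v) (List.replicate i 0) u = ac (Ph Ax ^ i) u := by
  rw [act_rep, h]

theorem two_nsmul_L (u : L3) : (2 : ℕ) • u = (2 : ZMod 3) • u := by
  rw [two_nsmul, two_smul]

theorem qII_mem : qII ∈ U1 := mem_U1.2 ⟨_, rfl⟩

theorem Ph_pow_mem {u : L3} (hu : u ∈ U1) (A : SL5) (i : ℕ) : ac (Ph A ^ i) u ∈ U1 := by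
  rw [← map_pow]
  exact Ph_U1 _ hu

/-- **the end**: if `r = f x q` lies in `U1`, then `f` stabilises `U1` -/
theorem end_of {v : ℕ → E} (h : Inp v) {k : ℕ} (hf : ac (v 3) qII = k • qII) (hr : ac (v 3) (ac (Ph Ax) qII) ∈ U1) :
    v 3 ∈ stabW U1 := by
  have hs := sys h hf
  have e1 : act (Tv v) [3, 0] qII = ac (v 3) (ac (Ph Ax) qII) := by
    show Tv v 3 (Tv v 0 qII) = _
    rw [Tv_apply, Tv_apply, h.vx]
  have hS : ∀ w : List ℕ, (∀ l ∈ w, l = 0 ∨ l = 1 ∨ l = 2) → ∀ u ∈ U1, act (Tv v) w u ∈ U1 := by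
    intro w hw u hu
    induction w with
    | nil => exact hu
    | cons l w ih =>
      rw [act_cons, Tv_apply]
      have h1 := ih (fun m hm => hw m (List.mem_cons_of_mem _ hm))
      rcases hw l List.mem_cons_self with rfl | rfl | rfl
      · rw [h.vx]; exact Ph_U1 _ h1
      · rw [h.vy]; exact Ph_U1 _ h1
      · rw [h.vt]; exact Ph_U1 _ h1
  have hr' : act (Tv v) [3, 0] qII ∈ U1 := by rw [e1]; exact hr
  have f1 : ac (v 3) (ac (Ph Ax ^ 1) qII) ∈ U1 := by rw [pow_one]; exact hr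
  have f0 : ac (v 3) qII ∈ U1 := by rw [hf]; exact nsmul_mem qII_mem k
  have f2 : ac (v 3) (ac (Ph Ax ^ 2) qII) ∈ U1 := by
    have h1 : act (Tv v) [3, 0, 0] qII = ac (v 3) (ac (Ph Ax ^ 2) qII) := by
      rw [← rep_eq v h.vx]; rfl
    rw [← h1, hs.f_q2]
    exact hS _ (by decide) _ hr'
  have f3 : ac (v 3) (ac (Ph Ax ^ 3) qII) ∈ U1 := by
    have h1 : act (Tv v) [3, 0, 0, 0] qII = ac (v 3) (ac (Ph Ax ^ 3) qII) := by
      rw [← rep_eq v h.vx]; rfl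
    rw [← h1, hs.f_q3]
    exact hS _ (by decide) _ hr'
  have f4 : ac (v 3) (ac (Ph Ax ^ 4) qII) ∈ U1 := by
    have h1 : act (Tv v) [3, 0, 0, 0, 0] qII = ac (v 3) (ac (Ph Ax ^ 4) qII) := by
      rw [← rep_eq v h.vx]; rfl
    rw [← h1, hs.f_q4]
    exact hS _ (by decide) _ hr'
  rw [mem_stabW]
  intro u hu
  obtain ⟨c, rfl⟩ := mem_span hu
  rw [ac_add, ac_add, ac_add, ac_add, ac_smul, ac_smul, ac_smul, ac_smul, ac_smul]
  exact U1.add_mem (U1.add_mem (U1.add_mem (U1.add_mem (U1.smul_mem _ f0) (U1.smul_mem _ f1)) (U1.smul_mem _ f2))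
    (U1.smul_mem _ f3)) (U1.smul_mem _ f4)

end Cfsg.Agent.H732.E8T
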