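import Cfsg.Agent.H732.E8T.Bk
import Cfsg.Agent.H977.E83.Cand

/-!
# S5925 box K (helper732): the final statement
-/

set_option autoImplicit false

namespace Cfsg.Agent.H732.E8T

open Cfsg.Agent.H837.E83.NM11 (eqP4)
open Cfsg.Agent.H788.E83 (Ax Ay At)
open Cfsg.Agent.H64.E83 (E Ph stabW U1)

/-- **box K**: an `f` with the relations of `M₁₁` over the explicit `L₂(11)` stabilises `U1` -/
theorem bk (f : E) (h : ∀ w w' : List (Fin 4), eqP4 w w' = true →
    (w.map ![Ph Ax, Ph Ay, Ph At, f]).prod = (w'.map ![Ph Ax, Ph Ay, Ph At, f]).prod) : f ∈ stabW U1 :=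
  bk_of Cfsg.Agent.H977.E83.Cand.base Cfsg.Agent.H977.E83.Cand.cand f h

end Cfsg.Agent.H732.E8T
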