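import Cfsg.Agent.H732.E8T.Kmain

/-!
# S5925 box K: the formula for `r = f x q` (helper732)
-/

set_option autoImplicit false
set_option maxRecDepth 100000
set_option maxHeartbeats 60000

namespace Cfsg.Agent.H732.E8T

open Matrix Cfsg Cfsg.Lie
open Cfsg.Agent.H837.E83.NM11
open Cfsg.Agent.H788.E83 (SL5 it Ax Ay At Ax_eq Ay_eq At_eq)
open Cfsg.Agent.H64.E83 (mx L3 er vec vec_eq vec_smul vec_append fb cf Ph E ac ac_one ac_mul ac_add ac_smul U1 stabW mem_stabW mem_U1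
  Ph_U1 i1 i1_add i1_smul i1_inj qII o1 act1' qII_eq x_qII vec_inl vec_inr)
open Cfsg.Agent.H738.E83 (br mx_br vb br_smul_right br_zero_left br_zero_right)
open Cfsg.Agent.H74.E83.Ker (nqs yso linM linP)
open Cfsg.Agent.H977.E83 (sE sY lp5 lp6 hvec lh1 lh2 lh3 lh4 ql r0 bh1 bh2 bh3 bh4 vec_h1 vec_h2 vec_h3 vec_h4 zl vb_zl)

/-- `r₀` in `U1` -/
theorem r0_eq : i1 ![0, 2, 1, 2, 1] = vb r0 := by
  have h1 : i1 ![0, 2, 1, 2, 1] = vec (((fb 1).map fun q => (q.1, (2 : ℤ) * q.2)) ++ fb 2 ++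
      ((fb 3).map fun q => (q.1, (2 : ℤ) * q.2)) ++ fb 4) := by
    rw [vec_append, vec_append, vec_append, vec_smul, vec_smul]
    show ∑ m, (![0, 2, 1, 2, 1] : Fin 5 → ZMod 3) m • vec (fb m) = _
    rw [Fin.sum_univ_five]
    show (0 : ZMod 3) • vec (fb 0) + (2 : ZMod 3) • vec (fb 1) + (1 : ZMod 3) • vec (fb 2) + (2 : ZMod 3) • vec (fb 3) +
      (1 : ZMod 3) • vec (fb 4) = _
    rw [zero_smul, zero_add, one_smul, one_smul]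
    rfl
  rw [h1, vb_zl]
  exact vec_eq (by decide +kernel)

theorem r0_mem : vb r0 ∈ U1 := mem_U1.2 ⟨_, r0_eq⟩

/-- the three words -/
noncomputable def F3 (w : L3) : L3 :=
  mx (Ph Ay) *ᵥ (mx (Ph Ax) *ᵥ (mx (Ph Ay) *ᵥ (mx (Ph At) *ᵥ (mx (Ph Ax) *ᵥ w)))) +
    mx (Ph Ax) *ᵥ (mx (Ph At) *ᵥ (mx (Ph Ay) *ᵥ (mx (Ph Ay) *ᵥ (mx (Ph Ax) *ᵥ w)))) +
    mx (Ph Ax) *ᵥ (mx (Ph Ay) *ᵥ (mx (Ph Ax) *ᵥ w))

theorem F3_lin (a b c d : ZMod 3) (p q r s : L3) : F3 (a • p + b • q + c • r + d • s) =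
    a • F3 p + b • F3 q + c • F3 r + d • F3 s := by
  unfold F3
  simp only [Matrix.mulVec_add, Matrix.mulVec_smul, smul_add]
  abel

theorem act5 {V : Type*} [AddCommGroup V] (T : ℕ → V →+ V) (a b c d e : ℕ) (w : V) :
    act T [a, b, c, d, e] w = T a (T b (T c (T d (T e w)))) := rfl

theorem act3 {V : Type*} [AddCommGroup V] (T : ℕ → V →+ V) (a b c : ℕ) (w : V) :
    act T [a, b, c] w = T a (T b (T c w)) := rfl

theorem act_F3 {v : ℕ → E} (h : Inp v) (w : L3) :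
    act (Tv v) [1, 0, 1, 2, 0] w + act (Tv v) [0, 2, 1, 1, 0] w + act (Tv v) [0, 1, 0] w = F3 w := by
  have a0 : ∀ u, Tv v 0 u = mx (Ph Ax) *ᵥ u := fun u => by rw [Tv_apply, h.vx]
  have a1 : ∀ u, Tv v 1 u = mx (Ph Ay) *ᵥ u := fun u => by rw [Tv_apply, h.vy]
  have a2 : ∀ u, Tv v 2 u = mx (Ph At) *ᵥ u := fun u => by rw [Tv_apply, h.vt]
  rw [act5, act5, act3, a0 w, a2, a1, a1, a0, a1, a0, a2, a1, a0]
  rfl

theorem o1_sum : (2 : ZMod 3) • o1 0 + o1 1 + o1 2 + (2 : ZMod 3) • o1 3 + o1 4 = ![0, 2, 1, 2, 1] := by decide +kernel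

theorem act_r0 {v : ℕ → E} (h : Inp v) : 2 • qII + act (Tv v) [0] qII + act (Tv v) [0, 0] qII + 2 • act (Tv v) [0, 0, 0] qII +
    act (Tv v) [0, 0, 0, 0] qII = vb r0 := by
  have e : ∀ i, act (Tv v) (List.replicate i 0) qII = ac (Ph Ax ^ i) qII := fun i => rep_eq v h.vx i qII
  have e1 := e 1
  have e2 := e 2
  have e3 := e 3
  have e4 := e 4
  simp only [List.replicate] at e1 e2 e3 e4
  rw [x_qII 1 (by norm_num)] at e1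
  rw [x_qII 2 (by norm_num)] at e2
  rw [x_qII 3 (by norm_num)] at e3
  rw [x_qII 4 (by norm_num)] at e4
  rw [e1, e2, e3, e4, qII_eq, two_nsmul_L, two_nsmul_L, ← i1_smul, ← i1_smul, ← i1_add, ← i1_add, ← i1_add, ← i1_add, o1_sum,
    r0_eq]

theorem F3_of {a b : L3} (h : a = -(mx (Ph Ay) *ᵥ (mx (Ph Ax) *ᵥ (mx (Ph Ay) *ᵥ (mx (Ph At) *ᵥ (mx (Ph Ax) *ᵥ b))))) -
      mx (Ph Ax) *ᵥ (mx (Ph At) *ᵥ (mx (Ph Ay) *ᵥ (mx (Ph Ay) *ᵥ (mx (Ph Ax) *ᵥ b)))) -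
      mx (Ph Ax) *ᵥ (mx (Ph Ay) *ᵥ (mx (Ph Ax) *ᵥ b))) : F3 b = -a := by
  rw [h]
  unfold F3
  generalize mx (Ph Ay) *ᵥ (mx (Ph Ax) *ᵥ (mx (Ph Ay) *ᵥ (mx (Ph At) *ᵥ (mx (Ph Ax) *ᵥ b)))) = A
  generalize mx (Ph Ax) *ᵥ (mx (Ph At) *ᵥ (mx (Ph Ay) *ᵥ (mx (Ph Ay) *ᵥ (mx (Ph Ax) *ᵥ b)))) = B
  generalize mx (Ph Ax) *ᵥ (mx (Ph Ay) *ᵥ (mx (Ph Ax) *ᵥ b)) = C
  abel

theorem eq_lw1 : vec Cfsg.Agent.H74.E83.Ker.lw1 = vec Cfsg.Agent.H977.E83.lw1 := vec_eq (by decide +kernel)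
theorem eq_lw2 : vec Cfsg.Agent.H74.E83.Ker.lw2 = vec Cfsg.Agent.H977.E83.lw2 := vec_eq (by decide +kernel)
theorem eq_lw3 : vec Cfsg.Agent.H74.E83.Ker.lw3 = vec Cfsg.Agent.H977.E83.lw3 := vec_eq (by decide +kernel)
theorem eq_lw4 : vec Cfsg.Agent.H74.E83.Ker.lw4 = vec Cfsg.Agent.H977.E83.lw4 := vec_eq (by decide +kernel)

theorem F3_1 : F3 (vec Cfsg.Agent.H74.E83.Ker.lw1) = -vb bh1 := by rw [eq_lw1, ← vec_h1]; exact F3_of hvec.1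
theorem F3_2 : F3 (vec Cfsg.Agent.H74.E83.Ker.lw2) = -vb bh2 := by rw [eq_lw2, ← vec_h2]; exact F3_of hvec.2.1
theorem F3_3 : F3 (vec Cfsg.Agent.H74.E83.Ker.lw3) = -vb bh3 := by rw [eq_lw3, ← vec_h3]; exact F3_of hvec.2.2.1
theorem F3_4 : F3 (vec Cfsg.Agent.H74.E83.Ker.lw4) = -vb bh4 := by rw [eq_lw4, ← vec_h4]; exact F3_of hvec.2.2.2

theorem alg4 {V : Type*} [AddCommGroup V] [Module (ZMod 3) V] (c1 c2 c3 c4 : ZMod 3) (r a b c d : V) :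
    r + (c1 • -a + c2 • -b + c3 • -c + c4 • -d) = r + (-c1) • a + (-c2) • b + (-c3) • c + (-c4) • d := by
  simp only [smul_neg, neg_smul]
  abel

/-- **the formula** -/
theorem r_form {v : ℕ → E} (h : Inp v) (hf : ac (v 3) qII = 2 • qII) : ∃ z1 z2 z3 z4 : ZMod 3,
    ac (v 3) (ac (Ph Ax) qII) = vb r0 + z1 • vb bh1 + z2 • vb bh2 + z3 • vb bh3 + z4 • vb bh4 := by
  have hs := sys h hf
  have h1 := hs.w_y2
  have h2 := hs.w_N2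
  have h3 := hs.w_t2
  have h4 := hs.r_eq2
  generalize wv (Tv v) qII = w at h1 h2 h3 h4
  have a1 : ∀ u, act (Tv v) [1] u = mx (Ph Ay) *ᵥ u := fun u => by rw [act_cons, act_nil, Tv_apply, h.vy]
  have a2 : ∀ u, act (Tv v) [2] u = mx (Ph At) *ᵥ u := fun u => by rw [act_cons, act_nil, Tv_apply, h.vt]
  have a3 : act (Tv v) [3, 0] qII = ac (v 3) (ac (Ph Ax) qII) := by
    rw [act_cons, act_cons, act_nil, Tv_apply, Tv_apply, h.vx]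
  rw [opN_eq h] at h2
  rw [opY_eq h, opN_eq h, a2] at h3
  rw [a1] at h1
  obtain ⟨c1, c2, c3, c4, hw⟩ := linM h1 h2 h3
  rw [a3, act_F3 h, act_r0 h, hw, F3_lin, F3_1, F3_2, F3_3, F3_4, alg4] at h4
  exact ⟨_, _, _, _, h4⟩

end Cfsg.Agent.H732.E8T
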