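import Cfsg.Agent.H732.E8T.Fin
import Cfsg.Agent.H74.E83.Lin
import Cfsg.Agent.H977.E83.Wlinp
import Cfsg.Agent.H977.E83.Wact

/-!
# S5925 box K: the main theorem (helper732)
-/

set_option autoImplicit false
set_option maxRecDepth 100000
set_option maxHeartbeats 60000

namespace Cfsg.Agent.H732.E8T

open Matrix Cfsg Cfsg.Lie
open Cfsg.Agent.H837.E83.NM11
open Cfsg.Agent.H788.E83 (SL5 it Ax Ay At Ax_eq Ay_eq At_eq)
open Cfsg.Agent.H64.E83 (mx L3 er vec cf Ph E ac ac_one ac_mul ac_add ac_smul U1 stabW mem_stabW mem_U1 Ph_U1 i1 i1_add i1_smul i1_inj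
  qII o1 act1' qII_eq x_qII vec_inl vec_inr)
open Cfsg.Agent.H738.E83 (br mx_br vb br_smul_right br_zero_left br_zero_right)
open Cfsg.Agent.H74.E83.Ker (nqs yso linM linP)
open Cfsg.Agent.H977.E83 (sE sY lp5 lp6 hvec lh1 lh2 lh3 lh4 ql r0 bh1 bh2 bh3 bh4 vec_h1 vec_h2 vec_h3 vec_h4)

theorem three_split {V : Type*} [AddCommGroup V] {w : V} (h : (3 : ℕ) • w = 0) : w + w = -w := by
  rw [eq_neg_iff_add_eq_zero]
  have h1 : (2 + 1) • w = 0 := h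
  rw [add_nsmul, two_nsmul, one_nsmul] at h1
  exact h1

theorem x1_Ph : Cfsg.Agent.H74.E83.Trip.x1 = Ph Ax := rfl

theorem y1_Ph : Cfsg.Agent.H74.E83.Trip.y1 = Ph Ay := rfl

theorem t1_Ph : Cfsg.Agent.H74.E83.Trip.t1 = Ph At := rfl

theorem nqs_Ph (u : L3) : nqs u = mx (Ph Ax ^ 2) *ᵥ u + mx (Ph Ax ^ 6) *ᵥ u + mx (Ph Ax ^ 7) *ᵥ u + mx (Ph Ax ^ 8) *ᵥ u +
    mx (Ph Ax ^ 10) *ᵥ u := by
  unfold nqs
  rw [x1_Ph]

theorem yso_Ph (u : L3) : yso u = u + mx (Ph Ay) *ᵥ u + mx (Ph Ay ^ 2) *ᵥ u + mx (Ph Ay ^ 3) *ᵥ u + mx (Ph Ay ^ 4) *ᵥ u := by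
  unfold yso
  rw [y1_Ph]

theorem opN_eq {v : ℕ → E} (h : Inp v) (u : L3) : opN (Tv v) u = nqs u := by
  have e : ∀ i, act (Tv v) (List.replicate i 0) u = mx (Ph Ax ^ i) *ᵥ u := fun i => rep_eq v h.vx i u
  have e2 := e 2
  have e6 := e 6
  have e7 := e 7
  have e8 := e 8
  have e10 := e 10
  simp only [List.replicate] at e2 e6 e7 e8 e10
  unfold opN
  rw [nqs_Ph, e2, e6, e7, e8, e10]

theorem opY_eq {v : ℕ → E} (h : Inp v) (u : L3) : opY (Tv v) u = yso u := by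
  have e : ∀ i, act (Tv v) (List.replicate i 1) u = mx (Ph Ay ^ i) *ᵥ u := fun i => by rw [act_rep, h.vy]
  have e1 := e 1
  have e2 := e 2
  have e3 := e 3
  have e4 := e 4
  simp only [List.replicate, pow_one] at e1 e2 e3 e4
  unfold opY
  rw [yso_Ph, e1, e2, e3, e4]

theorem sY_eq (u : L3) : yso u = sY u := by
  rw [yso_Ph]
  unfold sY
  rfl

theorem opQ' {V : Type*} [AddCommGroup V] (T : ℕ → V →+ V) (v : V) : v + opQ T v = v + act T [0] v + act T [0, 0, 0] v +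
    act T [0, 0, 0, 0] v + act T [0, 0, 0, 0, 0] v + act T [0, 0, 0, 0, 0, 0, 0, 0, 0] v := by
  unfold opQ
  simp only [add_assoc]

theorem sE_eq0 (u : L3) : sE u = u + mx (Ph Ax) *ᵥ u + mx (Ph Ax ^ 3) *ᵥ u +
    mx (Ph Ax ^ 4) *ᵥ u + mx (Ph Ax ^ 5) *ᵥ u + mx (Ph Ax ^ 9) *ᵥ u := by
  unfold sE
  rfl

theorem opQ_eq {v : ℕ → E} (h : Inp v) (u : L3) : u + opQ (Tv v) u = sE u := by
  have e : ∀ i, act (Tv v) (List.replicate i 0) u = mx (Ph Ax ^ i) *ᵥ u := fun i => rep_eq v h.vx i u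
  have e1 := e 1
  have e3 := e 3
  have e4 := e 4
  have e5 := e 5
  have e9 := e 9
  simp only [List.replicate, pow_one] at e1 e3 e4 e5 e9
  rw [opQ', e1, e3, e4, e5, e9, sE_eq0]

/-- `k = 1` is impossible -/
theorem no1 {v : ℕ → E} (h : Inp v) (hf : ac (v 3) qII = 1 • qII) : False := by
  have hs := sys h hf
  have h1 := hs.w_y1
  have h2 := hs.w_N1
  have h3 := hs.w_t1
  have h4 := hs.w_q1
  generalize wv (Tv v) qII = w at h1 h2 h3 h4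
  rw [opN_eq h] at h2
  rw [opY_eq h, opN_eq h] at h3
  rw [opQ_eq h, opY_eq h] at h4
  have e1 : act (Tv v) [1] w = mx (Ph Ay) *ᵥ w := by
    show Tv v 1 w = _
    rw [Tv_apply, h.vy]
  have e2 : act (Tv v) [2] w = mx (Ph At) *ᵥ w := by
    show Tv v 2 w = _
    rw [Tv_apply, h.vt]
  have e3 : act (Tv v) [0, 0, 2, 0] w = mx (Ph Ax) *ᵥ (mx (Ph Ax) *ᵥ (mx (Ph At) *ᵥ (mx (Ph Ax) *ᵥ w))) := by
    show Tv v 0 (Tv v 0 (Tv v 2 (Tv v 0 w))) = _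
    rw [Tv_apply, Tv_apply, Tv_apply, Tv_apply, h.vx, h.vt]
  rw [e1] at h1
  rw [e2] at h3
  rw [e3, sY_eq] at h4
  have hw3 : w + w = -w := three_split (three_L w)
  rw [hw3] at h3
  obtain ⟨c5, c6, hw⟩ := linP h1 h2 h3
  have hlin : ∀ (a b : ZMod 3) (p q : L3),
      sE (sY (mx (Ph Ax) *ᵥ (mx (Ph Ax) *ᵥ (mx (Ph At) *ᵥ (mx (Ph Ax) *ᵥ (a • p + b • q)))))) =
      a • sE (sY (mx (Ph Ax) *ᵥ (mx (Ph Ax) *ᵥ (mx (Ph At) *ᵥ (mx (Ph Ax) *ᵥ p))))) +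
      b • sE (sY (mx (Ph Ax) *ᵥ (mx (Ph Ax) *ᵥ (mx (Ph At) *ᵥ (mx (Ph Ax) *ᵥ q))))) := by
    intro a b p q
    have l1 : ∀ (a b : ZMod 3) (p q : L3), sY (a • p + b • q) = a • sY p + b • sY q := by
      intro a b p q
      unfold sY
      simp only [Matrix.mulVec_add, Matrix.mulVec_smul, smul_add]
      abel
    have l2 : ∀ (a b : ZMod 3) (p q : L3), sE (a • p + b • q) = a • sE p + b • sE q := by
      intro a b p q
      unfold sE
      simp only [Matrix.mulVec_add, Matrix.mulVec_smul, smul_add]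
      abel
    simp only [Matrix.mulVec_add, Matrix.mulVec_smul, l1, l2]
  rw [hw, hlin] at h4
  have e5 : vec Cfsg.Agent.H74.E83.Ker.lw5 = vec Cfsg.Agent.H977.E83.lw5 := Cfsg.Agent.H64.E83.vec_eq (by decide +kernel)
  have e6 : vec Cfsg.Agent.H74.E83.Ker.lw6 = vec Cfsg.Agent.H977.E83.lw6 := Cfsg.Agent.H64.E83.vec_eq (by decide +kernel)
  rw [e5, e6, lp5, lp6, smul_zero, smul_zero, add_zero] at h4
  have h5 : i1 (o1 0) = i1 0 := by rw [i1_zero, ← qII_eq, ← h4]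
  have h6 := i1_inj h5
  exact absurd (congrFun h6 0) (by decide)

end Cfsg.Agent.H732.E8T
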